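import Cfsg.Agent.R2.Spec.NA.Lvl

/-!
# S3435, packet NON-A (helper3): the finite check, `m < 120`
-/

set_option autoImplicit false

namespace Cfsg.Agent.R2.Spec.NA

open Cfsg.Agent.H403.NumTop

/-- the exact condition -/
def exc (s e : Bool) (m k u H θ j : ℕ) : Bool :=
  rZ s e m k u (Nat.gcd m (AA e 1 u)) H j &&
    chk θ (rT s e m k u j) (rR s e m k u j) (rMu s u j) (Nat.gcd m (AA e 1 u)) H (ZZ s e m u)

def ok1 (s : Bool) (m k u H : ℕ) : Bool :=
  crude s m k u H 0 || (crude s m k u H 1 || (crude s m k u H 2 || crude s m k u H 3))

def ok2 (s e : Bool) (m k u H : ℕ) : Bool :=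
  exc s e m k u H 2 0 || (exc s e m k u H 2 1 || (exc s e m k u H 2 2 || (exc s e m k u H 2 3 ||
    (exc s e m k u H 16 0 || (exc s e m k u H 16 1 || (exc s e m k u H 16 2 || exc s e m k u H 16 3))))))

/-- the leftover, `u = 2` -/
def bad2 : List (ℕ × Bool × Bool) :=
  [(7, false, false), (7, false, true), (7, true, false), (7, true, true), (8, false, false), (8, false, true),
    (8, true, false), (8, true, true), (9, false, false), (9, false, true), (9, true, false), (9, true, true),
    (10, false, false), (10, false, true), (10, true, false), (10, true, true), (11, false, false), (11, false, true),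
    (11, true, false), (12, false, false), (12, true, false), (15, true, false), (15, true, true), (20, true, true)]

/-- the leftover, `u = 3` -/
def bad3 : List (ℕ × Bool × Bool) :=
  [(7, false, false), (7, false, true), (7, true, false), (7, true, true), (8, false, false), (8, false, true),
    (8, true, false), (9, false, false), (10, true, true)]

def bad (s e : Bool) (m u H : ℕ) : Bool :=
  decide (H = 1) && ((decide (u = 2) && bad2.contains (m, s, e)) || (decide (u = 3) && bad3.contains (m, s, e)))

def finL (s : Bool) (m k : ℕ) : Bool :=
  LL.all fun x => ok1 s m k x.1 x.2 ||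
    ((ok2 s true m k x.1 x.2 || bad s true m x.1 x.2) && (ok2 s false m k x.1 x.2 || bad s false m x.1 x.2))

def str (s : Bool) (m k : ℕ) : Bool := strong s m k 0 || (strong s m k 1 || (strong s m k 2 || strong s m k 3))

def farr (s : Bool) (m k : ℕ) : Bool := farj s m k 0 || (farj s m k 1 || (farj s m k 2 || farj s m k 3))

def fink (s : Bool) (m k : ℕ) : Bool := str s m k || (farr s m k && finL s m k)

def finm (m : ℕ) : Bool :=
  (List.range (m - 1)).all fun k => decide (k < 3) ||
    ((decide (m % k = 0) || fink true m k) && (decide ((m - 1) % k = 0) || fink false m k))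

set_option maxRecDepth 100000 in
theorem finm_a : ((List.range 30).all fun i => finm (i + 7)) = true := by decide +kernel

set_option maxRecDepth 100000 in
theorem finm_b : ((List.range 83).all fun i => finm (i + 37)) = true := by decide +kernel

theorem finm_lt {m : ℕ} (h7 : 7 ≤ m) (h : m < 120) : finm m = true := by
  rcases Nat.lt_or_ge m 37 with h1 | h1
  · have h2 := List.all_eq_true.1 finm_a (m - 7) (List.mem_range.2 (by omega))
    simpa [Nat.sub_add_cancel h7] using h2
  · have h2 := List.all_eq_true.1 finm_b (m - 37) (List.mem_range.2 (by omega))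
    simpa [Nat.sub_add_cancel h1] using h2

end Cfsg.Agent.R2.Spec.NA
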