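import Cfsg.Agent.R2.Spec.NA.Rel

/-!
# S3435, packet NON-A (helper3): the seven relations

* `ND` : the hypotheses;
* `rT`, `rR`, `rMu`, `rL` : the data of the relations;
* `ND.bd` : the inequality.
-/

set_option autoImplicit false

namespace Cfsg.Agent.R2.Spec.NA

open Cfsg.Agent.H403.NumTop

/-- `i' = m` or `m - 1` -/
def ii (s : Bool) (m : ℕ) : ℕ := if s then m else m - 1

/-- the number of the class `i'`, times `gcd` -/
def ZZ (s e : Bool) (m u : ℕ) : ℕ := if s then YY e m u else AA e (m - 1) u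

/-- the hypotheses -/
structure ND (s e : Bool) (m k u q p H M N d : ℕ) (a b c : ℤ) : Prop where
  m7 : 7 ≤ m
  k3 : 3 ≤ k
  km : k + 2 ≤ m
  nk : ¬ k ∣ ii s m
  u2 : 2 ≤ u
  ex1 : ¬ (e = false ∧ u = 2 ∧ k = 3)
  p_prime : p.Prime
  pq : p ∣ q
  q3 : 3 ≤ q
  rel : a * M = b * N + c
  typ : Typ q a b c
  hd : d ∣ AA e 1 u
  eqM : d * M = H * ZZ s e m u
  n1 : AA e k u ∣ N
  n2 : YY e (m - k) u ∣ d * N
  n3 : ∀ b, 1 ≤ b → b + k + 1 ≤ m → AA e b u ∣ d * N
  pu : ¬ p ∣ u
  pH : ¬ p ∣ H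
  pN : ¬ p ∣ N

variable {s e : Bool} {m k u q p H M N d : ℕ} {a b c : ℤ}

theorem ND.pd (h : ND s e m k u q p H M N d a b c) : ¬ p ∣ d := fun h1 =>
  h.pN (h1.trans (h.hd.trans ((AA1_dvd h.u2).trans h.n1)))

theorem ND.pdN (h : ND s e m k u q p H M N d a b c) : ¬ p ∣ d * N := fun h1 =>
  (h.p_prime.dvd_mul.1 h1).elim h.pd h.pN

theorem ND.pA1 (h : ND s e m k u q p H M N d a b c) : ¬ p ∣ AA e 1 u := fun h1 =>
  h.pN (h1.trans ((AA1_dvd h.u2).trans h.n1))

theorem ND.d_pos (h : ND s e m k u q p H M N d a b c) : 0 < d :=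
  Nat.pos_of_dvd_of_pos h.hd (AA_pos h.u2 le_rfl)

theorem ND.d_le (h : ND s e m k u q p H M N d a b c) : d ≤ AA e 1 u :=
  Nat.le_of_dvd (AA_pos h.u2 le_rfl) h.hd

theorem ND.d_le' (h : ND s e m k u q p H M N d a b c) : d ≤ u + 1 :=
  h.d_le.trans (by have := AA_le (e := e) (n := 1) (u := u); rwa [pow_one] at this)

/-- `rel_core` in the present situation, `T ∣ K` in the natural numbers -/
theorem ND.core' (h : ND s e m k u q p H M N d a b c) {T : ℕ} {E μ K ρ : ℤ} (hZ : E.natAbs = ZZ s e m u)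
    (hE : μ * E = K + ρ) (hTK : T ∣ K.natAbs) (hTN : T ∣ d * N) (hpμ : ¬ p ∣ μ.natAbs) (hpK : ¬ p ∣ K.natAbs) :
    T ≤ (q + 1) * (H * ρ.natAbs + μ.natAbs * d * (q + 1)) ∨
      (T2 a b c ∧ H * ρ.natAbs = μ.natAbs * d ∧ μ.natAbs * d * N = H * K.natAbs) :=
  rel_core h.p_prime h.pq h.q3 h.rel h.typ (E := E) (d := d) (H := H) (by rw [hZ]; exact h.eqM) hE
    (Int.natCast_dvd.2 hTK) hTN h.pH h.pd (fun h1 => hpμ (Int.natCast_dvd.1 h1)) (fun h1 => hpK (Int.natCast_dvd.1 h1))

/-- `rel_core` in the present situation, `T ∣ K` in the natural numbers -/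
theorem ND.core (h : ND s e m k u q p H M N d a b c) {T : ℕ} {E μ K ρ : ℤ} (hZ : E.natAbs = ZZ s e m u)
    (hE : μ * E = K + ρ) (hTK : T ∣ K.natAbs) (hTN : T ∣ d * N) (hpμ : ¬ p ∣ μ.natAbs) (hpK : ¬ p ∣ K.natAbs) :
    T ≤ (q + 1) * (H * ρ.natAbs + μ.natAbs * d * (q + 1)) ∨
      (H * ρ.natAbs = μ.natAbs * d ∧ μ.natAbs * d * N = H * K.natAbs) := by
  rcases h.core' hZ hE hTK hTN hpμ hpK with h1 | ⟨-, h1⟩
  · exact Or.inl h1
  · exact Or.inr h1

theorem natAbs_add_le' {x y : ℤ} : (x + y).natAbs ≤ x.natAbs + y.natAbs := Int.natAbs_add_le _ _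

theorem cop_eq_one {A n P : ℕ} (h : A * n = P) (hc : Nat.Coprime P A) : A = 1 :=
  Nat.eq_one_of_dvd_coprimes hc (Dvd.intro _ h) dvd_rfl

theorem ND.R1t (h : ND true e m k u q p H M N d a b c) :
    YY e k u ≤ (q + 1) * (H * YY e (m - k) u + 1 * d * (q + 1)) := by
  have hu := h.u2
  have hk := h.k3
  have hkm := h.km
  have hE : (1 : ℤ) * Yz e m u = xv e u ^ (m - k) * Yz e k u + Yz e (m - k) u := by
    have h1 : Yz e m u = Yz e (m - k) u + xv e u ^ (m - k) * Yz e k u := by
      unfold Yz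
      rw [Finset.mul_sum]
      conv_lhs => rw [show m = (m - k) + k by omega, Finset.sum_range_add]
      simp only [pow_add]
    rw [h1]; ring
  have hK : (xv e u ^ (m - k) * Yz e k u).natAbs = u ^ (m - k) * YY e k u := by
    rw [Int.natAbs_mul, Int.natAbs_pow, xv_natAbs, Yz_natAbs hu]
  have h0 := h.core (T := YY e k u) (by rw [Yz_natAbs hu]; rfl) hE (by rw [hK]; exact Dvd.intro_left _ rfl)
    (((YY_dvd hu).trans h.n1).trans (Dvd.intro_left _ rfl)) (by
      intro h1; exact h.p_prime.one_lt.ne' (Nat.dvd_one.1 h1)) (by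
      rw [hK]; intro h1
      rcases h.p_prime.dvd_mul.1 h1 with h2 | h2
      · exact h.pu (h.p_prime.dvd_of_dvd_pow h2)
      · exact h.pN (h2.trans ((YY_dvd hu).trans h.n1)))
  rw [Yz_natAbs hu, hK] at h0
  rcases h0 with h0 | ⟨h0, h1⟩
  · exact h0
  · exfalso
    simp only [Int.natAbs_one, one_mul] at h0 h1
    obtain ⟨n, hn⟩ := h.n1
    have hH : 0 < H := by
      rcases Nat.eq_zero_or_pos H with h2 | h2
      · rw [h2, zero_mul] at h0; have := h.d_pos; omega
      · exact h2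
    have e1 : AA e (m - k) u * n = u ^ (m - k) := by
      refine Nat.eq_of_mul_eq_mul_left (Nat.mul_pos hH (YY_pos (e := e) (n := k) hu (by omega))) ?_
      calc H * YY e k u * (AA e (m - k) u * n) = H * YY e k u * (YY e (m - k) u * AA e 1 u * n) := by rw [YY_mul hu]
        _ = H * YY e (m - k) u * (YY e k u * AA e 1 u * n) := by ring
        _ = d * N := by rw [h0, YY_mul hu, hn]
        _ = _ := by rw [h1]; ring
    have e2 := cop_eq_one e1 (Nat.Coprime.pow_left _ (cop_u hu (by omega)))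
    have e3 := le_AA (e := e) (n := m - k) (u := u)
    have e4 : u ^ 2 ≤ u ^ (m - k) := Nat.pow_le_pow_right (by omega) (by omega)
    nlinarith

theorem AAk_big (hu : 2 ≤ u) (hk : 3 ≤ k) (hex : ¬ (e = false ∧ u = 2 ∧ k = 3)) : AA e 1 u < YY e k u := by
  refine lt_of_mul_lt_mul_right ?_ (Nat.zero_le (AA e 1 u))
  rw [YY_mul hu]
  have h1 : u ^ 3 ≤ u ^ k := Nat.pow_le_pow_right (by omega) hk
  have h2 := le_AA (e := e) (n := k) (u := u)
  cases e with
  | true =>
    rw [AA_true, pow_one]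
    obtain ⟨r, rfl⟩ : ∃ r, u = r + 2 := ⟨u - 2, by omega⟩
    rw [show r + 2 - 1 = r + 1 by omega]
    nlinarith
  | false =>
    rw [AA_false_odd (n := 1) rfl, pow_one]
    rcases Nat.lt_or_ge 2 u with h3 | h3
    · nlinarith [Nat.mul_le_mul_left (u * u) h3]
    · have h4 : u = 2 := by omega
      subst h4
      have h5 : 4 ≤ k := by
        rcases Nat.lt_or_ge 3 k with h6 | h6
        · omega
        · exact absurd ⟨rfl, rfl, by omega⟩ hex
      have h6 : 2 ^ 4 ≤ 2 ^ k := Nat.pow_le_pow_right (by omega) h5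
      omega

theorem ND.R2t (h : ND true e m k u q p H M N d a b c) :
    YY e (m - k) u ≤ (q + 1) * (H * YY e k u + 1 * d * (q + 1)) := by
  have hu := h.u2
  have hk := h.k3
  have hkm := h.km
  have hE : (1 : ℤ) * Yz e m u = xv e u ^ k * Yz e (m - k) u + Yz e k u := by
    have h1 : Yz e m u = Yz e k u + xv e u ^ k * Yz e (m - k) u := by
      unfold Yz
      rw [Finset.mul_sum]
      conv_lhs => rw [show m = k + (m - k) by omega, Finset.sum_range_add]
      simp only [pow_add]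
    rw [h1]; ring
  have hK : (xv e u ^ k * Yz e (m - k) u).natAbs = u ^ k * YY e (m - k) u := by
    rw [Int.natAbs_mul, Int.natAbs_pow, xv_natAbs, Yz_natAbs hu]
  have h0 := h.core (T := YY e (m - k) u) (by rw [Yz_natAbs hu]; rfl) hE (by rw [hK]; exact Dvd.intro_left _ rfl)
    h.n2 (by intro h1; exact h.p_prime.one_lt.ne' (Nat.dvd_one.1 h1)) (by
      rw [hK]; intro h1
      rcases h.p_prime.dvd_mul.1 h1 with h2 | h2
      · exact h.pu (h.p_prime.dvd_of_dvd_pow h2)
      · exact h.pdN (h2.trans h.n2))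
  rw [Yz_natAbs hu, hK] at h0
  rcases h0 with h0 | ⟨h0, h1⟩
  · exact h0
  · exfalso
    simp only [Int.natAbs_one, one_mul] at h0 h1
    have hH : 1 ≤ H := by
      rcases Nat.eq_zero_or_pos H with h2 | h2
      · rw [h2, zero_mul] at h0; have := h.d_pos; omega
      · exact h2
    have h2 := AAk_big (e := e) hu hk h.ex1
    have h3 := h.d_le
    nlinarith

theorem ND.P0t (h : ND true e m k u q p H M N d a b c)
    (hz : d < H * ((YY e k u - YY e (m - k) u) + (YY e (m - k) u - YY e k u))) :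
    Nat.lcm (AA e k u) (YY e (m - k) u) ≤ (q + 1) * (H * (YY e k u + YY e (m - k) u) + 1 * d * (q + 1)) := by
  have hu := h.u2
  have hk := h.k3
  have hkm := h.km
  have hE : (1 : ℤ) * Yz e m u = (xv e u ^ k - 1) * Yz e (m - k) u + (Yz e k u + Yz e (m - k) u) := by
    have h1 : Yz e m u = Yz e k u + xv e u ^ k * Yz e (m - k) u := by
      unfold Yz
      rw [Finset.mul_sum]
      conv_lhs => rw [show m = k + (m - k) by omega, Finset.sum_range_add]
      simp only [pow_add]
    rw [h1]; ring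
  have hK : ((xv e u ^ k - 1) * Yz e (m - k) u).natAbs = AA e k u * YY e (m - k) u := by
    rw [Int.natAbs_mul, AA_natAbs (by omega), Yz_natAbs hu]
  have h0 := h.core (T := Nat.lcm (AA e k u) (YY e (m - k) u)) (by rw [Yz_natAbs hu]; rfl) hE
    (by rw [hK]; exact Nat.lcm_dvd_mul _ _)
    (Nat.lcm_dvd (h.n1.trans (Dvd.intro_left _ rfl)) h.n2)
    (by intro h1; exact h.p_prime.one_lt.ne' (Nat.dvd_one.1 h1)) (by
      rw [hK]; intro h1
      rcases h.p_prime.dvd_mul.1 h1 with h2 | h2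
      · exact h.pN (h2.trans h.n1)
      · exact h.pdN (h2.trans h.n2))
  rcases h0 with h0 | ⟨h0, -⟩
  · refine h0.trans (Nat.mul_le_mul_left _ (Nat.add_le_add (Nat.mul_le_mul_left _ ?_) ?_))
    · refine (Int.natAbs_add_le _ _).trans ?_
      rw [Yz_natAbs hu, Yz_natAbs hu]
    · rw [Int.natAbs_one]
  · exfalso
    rw [Int.natAbs_one, one_mul] at h0
    have h2 : (YY e k u - YY e (m - k) u) + (YY e (m - k) u - YY e k u) ≤ (Yz e k u + Yz e (m - k) u).natAbs := by
      rw [← Yz_natAbs hu, ← Yz_natAbs hu]; omega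
    have h3 := Nat.mul_le_mul_left H h2
    omega

theorem ND.R1f' (h : ND false e m k u q p H M N d a b c) :
    AA e k u ≤ (q + 1) * (H * AA e (m - 1 - k) u + 1 * d * (q + 1)) ∨ (T2 a b c ∧ e = true ∧ u = 2 ∧ k + 2 = m) := by
  have hu := h.u2
  have hk := h.k3
  have hkm := h.km
  have hE : (1 : ℤ) * (xv e u ^ (m - 1) - 1) = xv e u ^ (m - 1 - k) * (xv e u ^ k - 1) + (xv e u ^ (m - 1 - k) - 1) := by
    conv_lhs => rw [show m - 1 = (m - 1 - k) + k by omega, pow_add]
    ring
  have hK : (xv e u ^ (m - 1 - k) * (xv e u ^ k - 1)).natAbs = u ^ (m - 1 - k) * AA e k u := by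
    rw [Int.natAbs_mul, Int.natAbs_pow, xv_natAbs, AA_natAbs (by omega)]
  have h0 := h.core' (T := AA e k u) (by rw [AA_natAbs (by omega)]; rfl) hE (by rw [hK]; exact Dvd.intro_left _ rfl)
    (h.n1.trans (Dvd.intro_left _ rfl)) (by
      intro h1; exact h.p_prime.one_lt.ne' (Nat.dvd_one.1 h1)) (by
      rw [hK]; intro h1
      rcases h.p_prime.dvd_mul.1 h1 with h2 | h2
      · exact h.pu (h.p_prime.dvd_of_dvd_pow h2)
      · exact h.pN (h2.trans h.n1))
  rw [AA_natAbs (by omega), hK] at h0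
  rcases h0 with h0 | ⟨hT, h0, h1⟩
  · exact Or.inl h0
  · right
    simp only [Int.natAbs_one, one_mul] at h0 h1
    obtain ⟨n, hn⟩ := h.n1
    have hH : 0 < H := by
      rcases Nat.eq_zero_or_pos H with h2 | h2
      · rw [h2, zero_mul] at h0; have := h.d_pos; omega
      · exact h2
    have e1 : AA e (m - 1 - k) u * n = u ^ (m - 1 - k) := by
      refine Nat.eq_of_mul_eq_mul_left (Nat.mul_pos hH (AA_pos (e := e) (n := k) hu (by omega))) ?_
      calc H * AA e k u * (AA e (m - 1 - k) u * n) = H * AA e (m - 1 - k) u * (AA e k u * n) := by ring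
        _ = d * N := by rw [h0, hn]
        _ = _ := by rw [h1]; ring
    have e2 := cop_eq_one e1 (Nat.Coprime.pow_left _ (cop_u hu (by omega)))
    have e3 := le_AA (e := e) (n := m - 1 - k) (u := u)
    have e5 : m - 1 - k = 1 := by
      by_contra hcon
      have e4 : u ^ 2 ≤ u ^ (m - 1 - k) := Nat.pow_le_pow_right (by omega) (by omega)
      nlinarith
    rw [e2, e5, pow_one] at e3
    have e6 : u = 2 := by omega
    refine ⟨hT, ?_, e6, by omega⟩
    cases e with
    | true => rfl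
    | false => rw [e5, e6] at e2; exact absurd e2 (by decide)

theorem ND.R1f (h : ND false e m k u q p H M N d a b c) (hex : ¬ (e = true ∧ u = 2 ∧ k + 2 = m)) :
    AA e k u ≤ (q + 1) * (H * AA e (m - 1 - k) u + 1 * d * (q + 1)) :=
  h.R1f'.resolve_right fun h1 => hex h1.2

theorem ND.R2f (h : ND false e m k u q p H M N d a b c) :
    YY e (m - k) u ≤ (q + 1) * (H * AA e (k - 1) u + 1 * d * (q + 1)) := by
  have hu := h.u2
  have hk := h.k3
  have hkm := h.km
  have hE : (1 : ℤ) * (xv e u ^ (m - 1) - 1) = xv e u ^ (k - 1) * (xv e u ^ (m - k) - 1) + (xv e u ^ (k - 1) - 1) := by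
    conv_lhs => rw [show m - 1 = (k - 1) + (m - k) by omega, pow_add]
    ring
  have hK : (xv e u ^ (k - 1) * (xv e u ^ (m - k) - 1)).natAbs = u ^ (k - 1) * AA e (m - k) u := by
    rw [Int.natAbs_mul, Int.natAbs_pow, xv_natAbs, AA_natAbs (by omega)]
  have h0 := h.core (T := YY e (m - k) u) (by rw [AA_natAbs (by omega)]; rfl) hE
    (by rw [hK]; exact (YY_dvd hu).mul_left _) h.n2
    (by intro h1; exact h.p_prime.one_lt.ne' (Nat.dvd_one.1 h1)) (by
      rw [hK]; intro h1
      rcases h.p_prime.dvd_mul.1 h1 with h2 | h2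
      · exact h.pu (h.p_prime.dvd_of_dvd_pow h2)
      · rw [← YY_mul hu] at h2
        rcases h.p_prime.dvd_mul.1 h2 with h3 | h3
        · exact h.pdN (h3.trans h.n2)
        · exact h.pA1 h3)
  rw [AA_natAbs (by omega), hK] at h0
  rcases h0 with h0 | ⟨h0, h1⟩
  · exact h0
  · exfalso
    simp only [Int.natAbs_one, one_mul] at h0 h1
    have hH : 1 ≤ H := by
      rcases Nat.eq_zero_or_pos H with h2 | h2
      · rw [h2, zero_mul] at h0; have := h.d_pos; omega
      · exact h2
    have h2 : AA e 1 u < AA e (k - 1) u := by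
      have h3 : u ^ 2 ≤ u ^ (k - 1) := Nat.pow_le_pow_right (by omega) (by omega)
      have h4 := le_AA (e := e) (n := k - 1) (u := u)
      cases e with
      | true =>
        rw [AA_true, pow_one]
        have h5 : u ^ 2 ≥ 2 * u := by nlinarith
        omega
      | false =>
        rw [AA_false_odd (n := 1) rfl, pow_one]
        rcases Nat.lt_or_ge 2 u with h6 | h6
        · have h5 : u ^ 2 ≥ 3 * u := by nlinarith
          omega
        · have h7 : u = 2 := by omega
          subst h7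
          have h8 : 4 ≤ k := by
            rcases Nat.lt_or_ge 3 k with h6 | h6
            · omega
            · exact absurd ⟨rfl, rfl, by omega⟩ h.ex1
          have h6 : 2 ^ 3 ≤ 2 ^ (k - 1) := Nat.pow_le_pow_right (by omega) (by omega)
          omega
    have h3 := h.d_le
    nlinarith

theorem ND.P0f (h : ND false e m k u q p H M N d a b c)
    (hz : u * d < H * (((AA e k u - AA e (m - k) u) + (AA e (m - k) u - AA e k u)) - AA e 1 u)) :
    Nat.lcm (AA e k u) (YY e (m - k) u) ≤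
      (q + 1) * (H * (AA e k u + AA e (m - k) u + AA e 1 u) + u * d * (q + 1)) := by
  have hu := h.u2
  have hk := h.k3
  have hkm := h.km
  have hE : xv e u * (xv e u ^ (m - 1) - 1) = (xv e u ^ k - 1) * (xv e u ^ (m - k) - 1) +
      ((xv e u ^ k - 1) + (xv e u ^ (m - k) - 1) - (xv e u ^ 1 - 1)) := by
    have h1 : xv e u * xv e u ^ (m - 1) = xv e u ^ k * xv e u ^ (m - k) := by
      rw [← pow_succ', ← pow_add]; congr 1; omega
    linear_combination h1
  have hK : ((xv e u ^ k - 1) * (xv e u ^ (m - k) - 1)).natAbs = AA e k u * AA e (m - k) u := by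
    rw [Int.natAbs_mul, AA_natAbs (by omega), AA_natAbs (by omega)]
  have h0 := h.core (T := Nat.lcm (AA e k u) (YY e (m - k) u)) (by rw [AA_natAbs (by omega)]; rfl) hE
    (by rw [hK]; exact (Nat.lcm_dvd_mul _ _).trans (Nat.mul_dvd_mul_left _ (YY_dvd hu)))
    (Nat.lcm_dvd (h.n1.trans (Dvd.intro_left _ rfl)) h.n2)
    (by rw [xv_natAbs]; exact h.pu) (by
      rw [hK]; intro h1
      rcases h.p_prime.dvd_mul.1 h1 with h2 | h2
      · exact h.pN (h2.trans h.n1)
      · rw [← YY_mul hu] at h2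
        rcases h.p_prime.dvd_mul.1 h2 with h3 | h3
        · exact h.pdN (h3.trans h.n2)
        · exact h.pA1 h3)
  rw [xv_natAbs] at h0
  rcases h0 with h0 | ⟨h0, -⟩
  · refine h0.trans (Nat.mul_le_mul_left _ (Nat.add_le_add_right (Nat.mul_le_mul_left _ ?_) _))
    refine (Int.natAbs_sub_le _ _).trans ?_
    rw [AA_natAbs (n := 1) (by omega)]
    refine Nat.add_le_add_right ((Int.natAbs_add_le _ _).trans ?_) _
    rw [AA_natAbs (by omega), AA_natAbs (by omega)]
  · exfalso
    have h2 : ((AA e k u - AA e (m - k) u) + (AA e (m - k) u - AA e k u)) - AA e 1 u ≤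
        ((xv e u ^ k - 1) + (xv e u ^ (m - k) - 1) - (xv e u ^ 1 - 1)).natAbs := by
      rw [← AA_natAbs (n := 1) (show 1 ≤ u by omega), ← AA_natAbs (n := k) (show 1 ≤ u by omega),
        ← AA_natAbs (n := m - k) (show 1 ≤ u by omega)]
      omega
    have h3 := Nat.mul_le_mul_left H h2
    omega

theorem ND.P1f (h : ND false e m k u q p H M N d a b c) 
    (hz : d < H * ((AA e k u - AA e (m - 1 - k) u) + (AA e (m - 1 - k) u - AA e k u))) :
    Nat.lcm (AA e k u) (AA e (m - 1 - k) u) ≤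
      (q + 1) * (H * (AA e k u + AA e (m - 1 - k) u) + 1 * d * (q + 1)) := by
  have hu := h.u2
  have hk := h.k3
  have hkm := h.km
  have hE : 1 * (xv e u ^ (m - 1) - 1) = (xv e u ^ k - 1) * (xv e u ^ (m - 1 - k) - 1) +
      ((xv e u ^ k - 1) + (xv e u ^ (m - 1 - k) - 1)) := by
    have h1 : xv e u ^ (m - 1) = xv e u ^ k * xv e u ^ (m - 1 - k) := by
      rw [← pow_add]; congr 1; omega
    linear_combination h1
  have hK : ((xv e u ^ k - 1) * (xv e u ^ (m - 1 - k) - 1)).natAbs = AA e k u * AA e (m - 1 - k) u := by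
    rw [Int.natAbs_mul, AA_natAbs (by omega), AA_natAbs (by omega)]
  have hn3 := h.n3 (m - 1 - k) (by omega) (by omega)
  have h0 := h.core (T := Nat.lcm (AA e k u) (AA e (m - 1 - k) u)) (by rw [AA_natAbs (by omega)]; rfl) hE
    (by rw [hK]; exact Nat.lcm_dvd_mul _ _)
    (Nat.lcm_dvd (h.n1.trans (Dvd.intro_left _ rfl)) hn3)
    (by intro h1; exact h.p_prime.one_lt.ne' (Nat.dvd_one.1 h1)) (by
      rw [hK]; intro h1
      rcases h.p_prime.dvd_mul.1 h1 with h2 | h2
      · exact h.pN (h2.trans h.n1)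
      · exact h.pdN (h2.trans hn3))
  rcases h0 with h0 | ⟨h0, -⟩
  · refine h0.trans (Nat.mul_le_mul_left _ (Nat.add_le_add (Nat.mul_le_mul_left _ ?_) ?_))
    · refine (Int.natAbs_add_le _ _).trans ?_
      rw [AA_natAbs (by omega), AA_natAbs (by omega)]
    · rw [Int.natAbs_one]
  · exfalso
    rw [Int.natAbs_one, one_mul] at h0
    have h2 : (AA e k u - AA e (m - 1 - k) u) + (AA e (m - 1 - k) u - AA e k u) ≤
        ((xv e u ^ k - 1) + (xv e u ^ (m - 1 - k) - 1)).natAbs := by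
      rw [← AA_natAbs (n := k) (show 1 ≤ u by omega), ← AA_natAbs (n := m - 1 - k) (show 1 ≤ u by omega)]
      omega
    have h3 := Nat.mul_le_mul_left H h2
    omega

/-- the data of the relations: `T`, `ρ`, `μ`, `λ` -/
def rT (s e : Bool) (m k u : ℕ) : ℕ → ℕ
  | 0 => if s then YY e k u else AA e k u
  | 1 => YY e (m - k) u
  | 2 => Nat.lcm (AA e k u) (YY e (m - k) u)
  | _ => Nat.lcm (AA e k u) (AA e (m - 1 - k) u)

def rR (s e : Bool) (m k u : ℕ) : ℕ → ℕ
  | 0 => if s then YY e (m - k) u else AA e (m - 1 - k) u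
  | 1 => if s then YY e k u else AA e (k - 1) u
  | 2 => if s then YY e k u + YY e (m - k) u else AA e k u + AA e (m - k) u + AA e 1 u
  | _ => AA e k u + AA e (m - 1 - k) u

def rMu (s : Bool) (u : ℕ) : ℕ → ℕ
  | 2 => if s then 1 else u
  | _ => 1

/-- the zero case is excluded -/
def rZ (s e : Bool) (m k u d H : ℕ) : ℕ → Bool
  | 0 => s || !(e && decide (u = 2) && decide (k + 2 = m))
  | 1 => true
  | 2 => if s then decide (d < H * ((YY e k u - YY e (m - k) u) + (YY e (m - k) u - YY e k u)))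
    else decide (u * d < H * (((AA e k u - AA e (m - k) u) + (AA e (m - k) u - AA e k u)) - AA e 1 u))
  | 3 => !s && decide (d < H * ((AA e k u - AA e (m - 1 - k) u) + (AA e (m - 1 - k) u - AA e k u)))
  | _ => false

theorem ND.bd (h : ND s e m k u q p H M N d a b c) (j : ℕ) (hz : rZ s e m k u d H j = true) :
    rT s e m k u j ≤ (q + 1) * (H * rR s e m k u j + rMu s u j * d * (q + 1)) := by
  match j, hz with
  | 0, hz =>
    cases s with
    | true => exact h.R1t
    | false =>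
      refine h.R1f ?_
      rintro ⟨h1, h2, h3⟩
      simp [rZ, h1, h2, h3] at hz
  | 1, _ =>
    cases s with
    | true => exact h.R2t
    | false => exact h.R2f
  | 2, hz =>
    cases s with
    | true => exact h.P0t (by simpa [rZ] using hz)
    | false => exact h.P0f (by simpa [rZ] using hz)
  | 3, hz =>
    cases s with
    | true => simp [rZ] at hz
    | false => exact h.P1f (by simpa [rZ] using hz)
  | n + 4, hz => simp [rZ] at hz

end Cfsg.Agent.R2.Spec.NA
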