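import Cfsg.Agent.R2.Spec.NA.Crude

/-!
# S3435, packet NON-A (helper3): the levels

* `lvl s m k j a1 a2 mn` : a condition on exponents;
* `strong` (all `u`), `farj` (large `u`);
* `strong_of_large` : `m ≥ 120`;
* `far_or` : `u = w^H` is large or in the list `LL`.
-/

set_option autoImplicit false

namespace Cfsg.Agent.R2.Spec.NA

open Cfsg.Agent.H403.NumTop

def zcc (s : Bool) (m k mn : ℕ) : ℕ → Bool
  | 0 => true
  | 1 => true
  | 2 => decide (k ≠ m - k) && decide (mn ≤ min k (m - k))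
  | 3 => !s && (decide (k ≠ m - 1 - k) && decide (mn ≤ min k (m - 1 - k)))
  | _ => false

def lvl (s : Bool) (m k j a1 a2 mn : ℕ) : Bool :=
  decide (7 * rr s m k j + (m - 1) + a1 ≤ 7 * tau s m k j) &&
    (decide (7 * nu s j + 5 + 2 * (m - 1) + a2 ≤ 7 * tau s m k j) && zcc s m k mn j)

theorem lvl_crude {s : Bool} {m k j a1 a2 mn u H : ℕ} (hu : 2 ≤ u) (h : lvl s m k j a1 a2 mn = true)
    (h1 : K1 j * H ^ 8 < u ^ a1) (h2 : K2 j * H ^ 2 < u ^ a2) (h3 : (u + 1) ^ 2 + 2 < u ^ mn * (u - 1)) :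
    crude s m k u H j = true := by
  rw [lvl] at h
  simp only [Bool.and_eq_true, decide_eq_true_eq] at h
  obtain ⟨c1, c2, c3⟩ := h
  rw [crude]
  simp only [Bool.and_eq_true, decide_eq_true_eq]
  refine ⟨⟨by omega, h1.trans_le (Nat.pow_le_pow_right (by omega) (by omega))⟩,
    ⟨by omega, h2.trans_le (Nat.pow_le_pow_right (by omega) (by omega))⟩, ?_⟩
  match j, c3 with
  | 0, _ => rfl
  | 1, _ => rfl
  | 2, c3 =>
    simp only [zcc, zc, Bool.and_eq_true, decide_eq_true_eq] at c3 ⊢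
    exact ⟨c3.1, h3.trans_le (Nat.mul_le_mul_right _ (Nat.pow_le_pow_right (by omega) c3.2))⟩
  | 3, c3 =>
    simp only [zcc, zc, Bool.and_eq_true, decide_eq_true_eq] at c3 ⊢
    exact ⟨c3.1, c3.2.1, h3.trans_le (Nat.mul_le_mul_right _ (Nat.pow_le_pow_right (by omega) c3.2.2))⟩
  | n + 4, c3 => simp [zcc] at c3

/-- all `u` -/
def strong (s : Bool) (m k : ℕ) : ℕ → Bool
  | 0 => lvl s m k 0 36 41 6
  | 1 => lvl s m k 1 36 41 6
  | 2 => lvl s m k 2 57 55 6
  | 3 => lvl s m k 3 57 55 6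
  | _ => false

/-- large `u` -/
def farj (s : Bool) (m k : ℕ) : ℕ → Bool
  | 0 => lvl s m k 0 5 6 2
  | 1 => lvl s m k 1 5 6 2
  | 2 => lvl s m k 2 7 8 2
  | 3 => lvl s m k 3 7 8 2
  | _ => false

theorem H8 {u H : ℕ} (h : 2 ^ H ≤ u) : H ^ 8 ≤ u ^ 5 := by
  refine le_trans ?_ (Nat.pow_le_pow_left h 5)
  rcases Nat.lt_or_ge H 8 with h1 | h1
  · interval_cases H <;> norm_num
  · induction H, h1 using Nat.le_induction with
    | base => norm_num
    | succ n hn ih =>
      have ih' := ih (le_trans (Nat.pow_le_pow_right (by norm_num) (by omega)) h)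
      have h2 : 8 * (n + 1) ≤ 9 * n := by omega
      have h3 := Nat.pow_le_pow_left h2 8
      rw [mul_pow, mul_pow] at h3
      have h4 : (2 ^ (n + 1)) ^ 5 = 32 * (2 ^ n) ^ 5 := by rw [pow_succ 2 n, mul_pow]; ring
      rw [h4]
      have h5 : (8 : ℕ) ^ 8 * (n + 1) ^ 8 ≤ 8 ^ 8 * (32 * (2 ^ n) ^ 5) := by
        calc (8 : ℕ) ^ 8 * (n + 1) ^ 8 ≤ 9 ^ 8 * n ^ 8 := h3
          _ ≤ 9 ^ 8 * (2 ^ n) ^ 5 := Nat.mul_le_mul_left _ ih'
          _ ≤ (8 ^ 8 * 32) * (2 ^ n) ^ 5 := Nat.mul_le_mul_right _ (by norm_num)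
          _ = _ := by ring
      exact Nat.le_of_mul_le_mul_left h5 (by norm_num)

theorem strong_crude {s : Bool} {m k j u H : ℕ} (hu : 2 ≤ u) (hH : 2 ^ H ≤ u) (h : strong s m k j = true) :
    crude s m k u H j = true := by
  have h8 := H8 hH
  have h2 : H ^ 2 ≤ u ^ 2 := Nat.pow_le_pow_left (Nat.lt_two_pow_self.le.trans hH) 2
  have hz : (u + 1) ^ 2 + 2 < u ^ 6 * (u - 1) := by
    have h3 : 2 ^ 4 ≤ u ^ 4 := Nat.pow_le_pow_left hu 4
    have h4 : u ^ 6 = u ^ 4 * u ^ 2 := by rw [← pow_add]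
    have h5 : u ^ 6 * 1 ≤ u ^ 6 * (u - 1) := Nat.mul_le_mul_left _ (by omega)
    have h6 : 16 * u ^ 2 ≤ u ^ 6 := by rw [h4]; exact Nat.mul_le_mul_right _ h3
    nlinarith
  have key : ∀ {K n a l : ℕ}, K < 2 ^ n → l ≤ u ^ a → K * l < u ^ (n + a) := by
    intro K n a l hK hl
    have hp : 0 < u ^ a := Nat.pow_pos (by omega)
    calc K * l ≤ K * u ^ a := Nat.mul_le_mul_left _ hl
      _ < 2 ^ n * u ^ a := Nat.mul_lt_mul_of_pos_right hK hp
      _ ≤ u ^ n * u ^ a := Nat.mul_le_mul_right _ (Nat.pow_le_pow_left hu n)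
      _ = _ := by rw [pow_add]
  match j, h with
  | 0, h => exact lvl_crude hu h (key (n := 31) (a := 5) (by norm_num [K1]) h8) (key (n := 39) (a := 2) (by norm_num [K2]) h2) hz
  | 1, h => exact lvl_crude hu h (key (n := 31) (a := 5) (by norm_num [K1]) h8) (key (n := 39) (a := 2) (by norm_num [K2]) h2) hz
  | 2, h => exact lvl_crude hu h (key (n := 52) (a := 5) (by norm_num [K1]) h8) (key (n := 53) (a := 2) (by norm_num [K2]) h2) hz
  | 3, h => exact lvl_crude hu h (key (n := 52) (a := 5) (by norm_num [K1]) h8) (key (n := 53) (a := 2) (by norm_num [K2]) h2) hz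
  | n + 4, h => simp [strong] at h

/-- large `u` -/
def Far (u H : ℕ) : Prop :=
  K1 0 * H ^ 8 < u ^ 5 ∧ K2 0 * H ^ 2 < u ^ 6 ∧ K1 2 * H ^ 8 < u ^ 7 ∧ K2 2 * H ^ 2 < u ^ 8

theorem Far.mono {u v H : ℕ} (h : Far u H) (huv : u ≤ v) : Far v H :=
  ⟨h.1.trans_le (Nat.pow_le_pow_left huv _), h.2.1.trans_le (Nat.pow_le_pow_left huv _),
    h.2.2.1.trans_le (Nat.pow_le_pow_left huv _), h.2.2.2.trans_le (Nat.pow_le_pow_left huv _)⟩

theorem far_crude {s : Bool} {m k j u H : ℕ} (hu : 5 ≤ u) (hF : Far u H) (h : farj s m k j = true) :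
    crude s m k u H j = true := by
  have hz : (u + 1) ^ 2 + 2 < u ^ 2 * (u - 1) := by
    have h5 : u ^ 2 * 4 ≤ u ^ 2 * (u - 1) := Nat.mul_le_mul_left _ (by omega)
    nlinarith
  match j, h with
  | 0, h => exact lvl_crude (by omega) h hF.1 hF.2.1 hz
  | 1, h => exact lvl_crude (by omega) h hF.1 hF.2.1 hz
  | 2, h => exact lvl_crude (by omega) h hF.2.2.1 hF.2.2.2 hz
  | 3, h => exact lvl_crude (by omega) h hF.2.2.1 hF.2.2.2 hz
  | n + 4, h => simp [farj] at h

/-- the small `u`, with `H` -/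
def LL : List (ℕ × ℕ) :=
  (List.range 171).map (fun i => (i + 2, 1)) ++
    [(32, 5), (243, 5), (1024, 5), (128, 7), (2048, 11)]

theorem far_two {H : ℕ} (h : 13 ≤ H) : Far (2 ^ H) H := by
  induction H, h using Nat.le_induction with
  | base => unfold Far K1 K2; norm_num
  | succ n hn ih =>
    obtain ⟨h1, h2, h3, h4⟩ := ih
    have e0 : 13 * (n + 1) ≤ 14 * n := by omega
    have e8 : (n + 1) ^ 8 ≤ 2 * n ^ 8 := by
      have h5 := Nat.pow_le_pow_left e0 8
      rw [mul_pow, mul_pow] at h5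
      omega
    have e2 : (n + 1) ^ 2 ≤ 2 * n ^ 2 := by
      have h5 := Nat.pow_le_pow_left e0 2
      rw [mul_pow, mul_pow] at h5
      omega
    have hs : ∀ a : ℕ, (2 ^ (n + 1)) ^ a = 2 ^ a * (2 ^ n) ^ a := by
      intro a; rw [pow_succ, mul_pow, mul_comm]
    have key : ∀ {K x y a b : ℕ}, y ≤ 2 * x → 1 ≤ a → K * x < (2 ^ n) ^ a → K * y < (2 ^ (n + 1)) ^ a := by
      intro K x y a b hy ha hK
      have h2a : 2 ^ 1 ≤ 2 ^ a := Nat.pow_le_pow_right (by norm_num) ha
      calc K * y ≤ K * (2 * x) := Nat.mul_le_mul_left _ hy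
        _ = 2 * (K * x) := by ring
        _ < 2 * (2 ^ n) ^ a := Nat.mul_lt_mul_of_pos_left hK (by norm_num)
        _ ≤ 2 ^ a * (2 ^ n) ^ a := Nat.mul_le_mul_right _ (by simpa using h2a)
        _ = _ := (hs a).symm
    exact ⟨key (b := 0) e8 (by norm_num) h1, key (b := 0) e2 (by norm_num) h2, key (b := 0) e8 (by norm_num) h3,
      key (b := 0) e2 (by norm_num) h4⟩

theorem far_or {u w H : ℕ} (hH : H % 2 = 1) (hH3 : ¬ 3 ∣ H) (hw : 2 ≤ w) (hu : u = w ^ H) : Far u H ∨ (u, H) ∈ LL := by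
  have key : ∀ w0 : ℕ, Far (w0 ^ H) H → w0 ≤ w → Far u H := fun w0 h1 h2 => by
    rw [hu]; exact h1.mono (Nat.pow_le_pow_left h2 _)
  rcases Nat.lt_or_ge H 13 with h1 | h1
  · have h2 : H = 1 ∨ H = 5 ∨ H = 7 ∨ H = 11 := by omega
    rcases h2 with rfl | rfl | rfl | rfl
    · rcases Nat.lt_or_ge w 173 with h3 | h3
      · right
        rw [pow_one] at hu
        rw [hu]
        refine List.mem_append_left _ (List.mem_map.2 ⟨w - 2, List.mem_range.2 (by omega), ?_⟩)
        rw [show w - 2 + 2 = w by omega]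
      · exact Or.inl (key 173 (by unfold Far K1 K2; norm_num) h3)
    · rcases Nat.lt_or_ge w 5 with h3 | h3
      · right
        refine List.mem_append_right _ ?_
        rw [hu]; interval_cases w <;> simp
      · exact Or.inl (key 5 (by unfold Far K1 K2; norm_num) h3)
    · rcases Nat.lt_or_ge w 3 with h3 | h3
      · right
        refine List.mem_append_right _ ?_
        rw [hu]; interval_cases w; simp
      · exact Or.inl (key 3 (by unfold Far K1 K2; norm_num) h3)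
    · rcases Nat.lt_or_ge w 3 with h3 | h3
      · right
        refine List.mem_append_right _ ?_
        rw [hu]; interval_cases w; simp
      · exact Or.inl (key 3 (by unfold Far K1 K2; norm_num) h3)
  · exact Or.inl (key 2 (far_two h1) hw)

/-- `m ≥ 120` -/
theorem strong_of_large {s : Bool} {m k : ℕ} (hm : 120 ≤ m) (hk : 3 ≤ k) (hkm : k + 2 ≤ m) (hn : ¬ k ∣ ii s m) :
    ∃ j, strong s m k j = true := by
  have hne : s = true → 2 * k ≠ m := by
    rintro rfl h
    exact hn (Dvd.intro_left 2 h)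
  have hg : 2 * k ≠ m → Nat.gcd k (m - k) ≤ 2 * k - m + (m - 2 * k) := by
    intro h
    rcases Nat.lt_or_ge k (m - k) with h1 | h1
    · refine Nat.le_of_dvd (by omega) ?_
      have h2 := Nat.dvd_sub (Nat.gcd_dvd_right k (m - k)) (Nat.gcd_dvd_left k (m - k))
      rwa [show m - k - k = 2 * k - m + (m - 2 * k) by omega] at h2
    · refine Nat.le_of_dvd (by omega) ?_
      have h2 := Nat.dvd_sub (Nat.gcd_dvd_left k (m - k)) (Nat.gcd_dvd_right k (m - k))
      rwa [show k - (m - k) = 2 * k - m + (m - 2 * k) by omega] at h2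
  cases s with
  | true =>
    have h1 := hne rfl
    have h2 := hg h1
    by_cases c0 : 7 * (m - k - 1) + (m - 1) + 36 ≤ 7 * (k - 1)
    · refine ⟨0, ?_⟩
      simp only [strong, lvl, rr, tau, nu, zcc, if_true, Bool.and_true, Bool.and_eq_true, decide_eq_true_eq]
      omega
    by_cases c1 : 7 * (k - 1) + (m - 1) + 36 ≤ 7 * (m - k - 1)
    · refine ⟨1, ?_⟩
      simp only [strong, lvl, rr, tau, nu, zcc, Bool.and_true, Bool.and_eq_true, decide_eq_true_eq]
      omega
    refine ⟨2, ?_⟩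
    simp only [strong, lvl, rr, tau, nu, zcc, if_true, Bool.and_eq_true, decide_eq_true_eq]
    rcases Nat.lt_or_ge k (m - k) with h3 | h3
    · rw [max_eq_right h3.le, min_eq_left h3.le]
      omega
    · rw [max_eq_left h3, min_eq_right h3]
      omega
  | false =>
    by_cases c0 : 7 * (m - k - 1) + (m - 1) + 36 ≤ 7 * k
    · refine ⟨0, ?_⟩
      simp only [strong, lvl, rr, tau, nu, zcc, Bool.false_eq_true, if_false, Bool.and_true, Bool.and_eq_true,
        decide_eq_true_eq]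
      omega
    by_cases c1 : 7 * (k - 1) + (m - 1) + 36 ≤ 7 * (m - k - 1)
    · refine ⟨1, ?_⟩
      simp only [strong, lvl, rr, tau, nu, zcc, Bool.and_true, Bool.and_eq_true, decide_eq_true_eq]
      omega
    by_cases h1 : 2 * k = m
    · refine ⟨3, ?_⟩
      have h4 : Nat.gcd k (m - 1 - k) ≤ 1 := by
        refine Nat.le_of_dvd one_pos ?_
        have h2 := Nat.dvd_sub (Nat.gcd_dvd_left k (m - 1 - k)) (Nat.gcd_dvd_right k (m - 1 - k))
        rwa [show k - (m - 1 - k) = 1 by omega] at h2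
      simp only [strong, lvl, rr, tau, nu, zcc, Bool.not_false, Bool.true_and, Bool.and_eq_true, decide_eq_true_eq]
      rw [max_eq_left (by omega), min_eq_right (by omega)]
      omega
    · refine ⟨2, ?_⟩
      have h2 := hg h1
      simp only [strong, lvl, rr, tau, nu, zcc, Bool.false_eq_true, if_false, Bool.and_eq_true, decide_eq_true_eq]
      rcases Nat.lt_or_ge k (m - k) with h3 | h3
      · rw [max_eq_right h3.le, min_eq_left h3.le]
        omega
      · rw [max_eq_left h3, min_eq_right h3]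
        omega

end Cfsg.Agent.R2.Spec.NA
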