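import Cfsg.Agent.R2.Spec.NA.Fin

/-!
# S3435, packet NON-A (helper3): the theorem about `ND`

`ND.main` : the leftover `bad` (32 numbers), or type II and `u = 2`, `i' = m - 1`, `j' = m - 2`.
-/

set_option autoImplicit false

namespace Cfsg.Agent.R2.Spec.NA

open Cfsg.Agent.H403.NumTop

variable {s e : Bool} {m k u q p H M N d : ℕ} {a b c : ℤ}

theorem or_strong (h : str s m k = true) : ∃ j, strong s m k j = true := by
  rw [str, Bool.or_eq_true, Bool.or_eq_true, Bool.or_eq_true] at h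
  rcases h with h | h | h | h
  · exact ⟨0, h⟩
  · exact ⟨1, h⟩
  · exact ⟨2, h⟩
  · exact ⟨3, h⟩

theorem or_farj (h : farr s m k = true) : ∃ j, farj s m k j = true := by
  rw [farr, Bool.or_eq_true, Bool.or_eq_true, Bool.or_eq_true] at h
  rcases h with h | h | h | h
  · exact ⟨0, h⟩
  · exact ⟨1, h⟩
  · exact ⟨2, h⟩
  · exact ⟨3, h⟩

theorem or_crude (h : ok1 s m k u H = true) : ∃ j, crude s m k u H j = true := by
  rw [ok1, Bool.or_eq_true, Bool.or_eq_true, Bool.or_eq_true] at h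
  rcases h with h | h | h | h
  · exact ⟨0, h⟩
  · exact ⟨1, h⟩
  · exact ⟨2, h⟩
  · exact ⟨3, h⟩

theorem or_exc (h : ok2 s e m k u H = true) : ∃ θ j, 1 ≤ θ ∧ exc s e m k u H θ j = true := by
  simp only [ok2, Bool.or_eq_true] at h
  rcases h with h | h | h | h | h | h | h | h
  · exact ⟨2, 0, by norm_num, h⟩
  · exact ⟨2, 1, by norm_num, h⟩
  · exact ⟨2, 2, by norm_num, h⟩
  · exact ⟨2, 3, by norm_num, h⟩
  · exact ⟨16, 0, by norm_num, h⟩
  · exact ⟨16, 1, by norm_num, h⟩
  · exact ⟨16, 2, by norm_num, h⟩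
  · exact ⟨16, 3, by norm_num, h⟩

theorem ND.of_exc (h : ND s e m k u q p H M N d a b c) (hd : d = Nat.gcd m (AA e 1 u)) (hs : q ^ 7 ≤ 64 * M) {θ j : ℕ}
    (hθ : 1 ≤ θ) (hc : exc s e m k u H θ j = true) : False := by
  rw [exc, Bool.and_eq_true, ← hd] at hc
  exact semi_false hθ h.q3 h.eqM hs (h.bd j hc.1) hc.2

/-- outside the exceptional case -/
theorem ND.gen (h : ND s e m k u q p H M N d a b c) (hd : d = Nat.gcd m (AA e 1 u)) (hs : q ^ 7 ≤ 64 * M)
    (hH : 1 ≤ H) (h2 : H % 2 = 1) (h3 : ¬ 3 ∣ H) (hw : ∃ w, 2 ≤ w ∧ u = w ^ H)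
    (hex : ¬ (s = false ∧ e = true ∧ u = 2 ∧ k + 2 = m)) : bad s e m u H = true := by
  obtain ⟨w, hw2, hw⟩ := hw
  have h2H : 2 ^ H ≤ u := by rw [hw]; exact Nat.pow_le_pow_left hw2 H
  rcases Nat.lt_or_ge m 120 with hm | hm
  · have h1 := finm_lt h.m7 hm
    have hk := h.k3
    have hkm := h.km
    have h4 := List.all_eq_true.1 h1 k (List.mem_range.2 (by omega))
    have h5 : fink s m k = true := by
      simp only [Bool.or_eq_true, Bool.and_eq_true, decide_eq_true_eq] at h4
      have h6 := h4.resolve_left (by omega)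
      cases s with
      | true =>
        refine h6.1.resolve_left fun h7 => h.nk ?_
        exact Nat.dvd_of_mod_eq_zero h7
      | false =>
        refine h6.2.resolve_left fun h7 => h.nk ?_
        exact Nat.dvd_of_mod_eq_zero h7
    rw [fink, Bool.or_eq_true, Bool.and_eq_true] at h5
    rcases h5 with h5 | ⟨h5, h6⟩
    · obtain ⟨j, hj⟩ := or_strong h5
      exact (h.of_crude hs hH hex (strong_crude h.u2 h2H hj)).elim
    · rcases far_or h2 h3 hw2 hw with h7 | h7
      · obtain ⟨j, hj⟩ := or_farj h5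
        have hu5 : 5 ≤ u := by
          by_contra hcon
          have h8 := h7.1
          have h9 : u ^ 5 ≤ 4 ^ 5 := Nat.pow_le_pow_left (by omega) 5
          have h10 : 1 ≤ H ^ 8 := Nat.one_le_pow _ _ hH
          have h11 : K1 0 * 1 ≤ K1 0 * H ^ 8 := Nat.mul_le_mul_left _ h10
          have h12 : K1 0 = 2013265920 := by norm_num [K1]
          omega
        exact (h.of_crude hs hH hex (far_crude hu5 h7 hj)).elim
      · have h8 := List.all_eq_true.1 h6 _ h7
        simp only [Bool.or_eq_true, Bool.and_eq_true] at h8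
        rcases h8 with h8 | ⟨h8, h9⟩
        · obtain ⟨j, hj⟩ := or_crude h8
          exact (h.of_crude hs hH hex hj).elim
        · cases e with
          | true =>
            rcases h8 with h8 | h8
            · obtain ⟨θ, j, hθ, hj⟩ := or_exc h8
              exact (h.of_exc hd hs hθ hj).elim
            · exact h8
          | false =>
            rcases h9 with h8 | h8
            · obtain ⟨θ, j, hθ, hj⟩ := or_exc h8
              exact (h.of_exc hd hs hθ hj).elim
            · exact h8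
  · obtain ⟨j, hj⟩ := strong_of_large hm h.k3 h.km h.nk
    exact (h.of_crude hs hH hex (strong_crude h.u2 h2H hj)).elim

/-- the exceptional case -/
theorem ND.exn (h : ND s e m k u q p H M N d a b c) (hd : d = Nat.gcd m (AA e 1 u)) (hs : q ^ 7 ≤ 64 * M)
    (hH : 1 ≤ H) (hw : ∃ w, 2 ≤ w ∧ u = w ^ H)
    (hex : s = false ∧ e = true ∧ u = 2 ∧ k + 2 = m) : bad s e m u H = true ∨ T2 a b c := by
  obtain ⟨rfl, rfl, rfl, hkm⟩ := hex
  have hH1 : H = 1 := by
    obtain ⟨w, hw2, hw⟩ := hw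
    by_contra hne
    have h1 : w ^ 2 ≤ w ^ H := Nat.pow_le_pow_right (by omega) (by omega)
    nlinarith
  subst hH1
  rcases h.R1f' with h1 | h1
  · left
    have hm7 := h.m7
    rcases Nat.lt_or_ge m 8 with h8 | h8
    · obtain rfl : m = 7 := by omega
      decide
    · exfalso
      have hA1 : AA true 1 2 = 1 := by decide
      rw [hA1, Nat.gcd_one_right] at hd
      subst hd
      have e1 : m - 1 - k = 1 := by omega
      obtain ⟨x, hx⟩ : ∃ x, x = 2 ^ k := ⟨_, rfl⟩
      have hx64 : 64 ≤ x := by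
        rw [hx]
        calc 64 = 2 ^ 6 := by norm_num
          _ ≤ 2 ^ k := Nat.pow_le_pow_right (by norm_num) (by omega)
      have hZ : ZZ false true m 2 = 2 * x - 1 := by
        rw [ZZ, if_neg (by simp), AA_true, hx, show m - 1 = k + 1 by omega, pow_succ, mul_comm]
      have hM := h.eqM
      rw [hZ] at hM
      rw [e1, hA1, AA_true, ← hx] at h1
      refine semi_false (θ := 2) (ρ := 1) (μ := 1) (d := 1) (H := 1) (by norm_num) h.q3 hM hs h1 ?_
      rw [chk, Bool.and_eq_true, decide_eq_true_eq, decide_eq_true_eq]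
      obtain ⟨y, hy⟩ : ∃ y, y = x - 1 := ⟨_, rfl⟩
      have hZ' : 2 * x - 1 = 2 * y + 1 := by omega
      have hy63 : 63 ≤ y := by omega
      rw [← hy, hZ']
      have c1 : 63 * (2 * y + 1) ≤ 127 * y := by omega
      have c2 : 63 ^ 5 ≤ y ^ 5 := Nat.pow_le_pow_left hy63 5
      have c3 : 63 ^ 6 ≤ y ^ 6 := Nat.pow_le_pow_left hy63 6
      have c4 : (63 * (2 * y + 1)) ^ 2 ≤ (127 * y) ^ 2 := Nat.pow_le_pow_left c1 2
      constructor
      · have e2 : ((2 - 1) * y) ^ 7 * 1 = y ^ 6 * y := by ring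
        have e3 : (2 * (1 * 1)) ^ 7 * (480 * (1 * (2 * y + 1))) = 61440 * (2 * y + 1) := by ring
        rw [e2, e3]
        have c5 := Nat.mul_le_mul_right y c3
        norm_num at c5
        omega
      · have e2 : y ^ 7 * 1 ^ 2 = y ^ 5 * y ^ 2 := by ring
        have e3 : (2 * (1 * 1)) ^ 7 * (480 ^ 2 * (1 * (2 * y + 1)) ^ 2) = 29491200 * (2 * y + 1) ^ 2 := by ring
        rw [e2, e3]
        have c5 := Nat.mul_le_mul_right (y ^ 2) c2
        have c6 : 0 < y ^ 2 := Nat.pow_pos (by omega)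
        rw [mul_pow, mul_pow] at c4
        norm_num at c4 c5
        omega
  · exact Or.inr h1.1

/-- **The leftover.** -/
theorem ND.main (h : ND s e m k u q p H M N d a b c) (hd : d = Nat.gcd m (AA e 1 u)) (hs : q ^ 7 ≤ 64 * M)
    (hH : 1 ≤ H) (h2 : H % 2 = 1) (h3 : ¬ 3 ∣ H) (hw : ∃ w, 2 ≤ w ∧ u = w ^ H) :
    bad s e m u H = true ∨ (T2 a b c ∧ u = 2) := by
  by_cases hex : s = false ∧ e = true ∧ u = 2 ∧ k + 2 = m
  · rcases h.exn hd hs hH hw hex with h1 | h1
    · exact Or.inl h1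
    · exact Or.inr ⟨h1, hex.2.2.1⟩
  · exact Or.inl (h.gen hd hs hH h2 h3 hw hex)

end Cfsg.Agent.R2.Spec.NA
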