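import Cfsg.Agent.R2.Spec.NA.Num

/-!
# S3435, packet NON-A (helper3): the relations

* `Typ q a b c` : `TypI` or `TypII`;
* `rel_core` : `μ E = K + ρ`, `T ∣ K`, `T ∣ d N` give `T ≤ (q + 1) (H |ρ| + |μ| d (q + 1))`, or type II and the zero case;
* `semi_false` : the sufficient condition `chk` for a contradiction.
-/

set_option autoImplicit false

namespace Cfsg.Agent.R2.Spec.NA

open Cfsg.Agent.H403.NumTop

/-- type I or type II -/
def T2 (a b c : ℤ) : Prop := a = 1 ∧ b = 1 ∧ (c = 1 ∨ c = -1)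

def Typ (q : ℕ) (a b c : ℤ) : Prop :=
  (∃ s : ℤ, (s = 1 ∨ s = -1) ∧ ((a = q + s ∧ b = q) ∨ (a = q ∧ b = q + s)) ∧ c ∣ (q + s) ^ 2) ∨ T2 a b c

theorem Typ.a_le {q : ℕ} {a b c : ℤ} (h : Typ q a b c) (hq : 1 ≤ q) : a.natAbs ≤ q + 1 := by
  rcases h with ⟨s, hs, h1, -⟩ | ⟨h1, -, -⟩
  · rcases h1 with ⟨h1, -⟩ | ⟨h1, -⟩ <;> rcases hs with rfl | rfl <;> omega
  · omega

theorem Typ.c_le {q : ℕ} {a b c : ℤ} (h : Typ q a b c) (hq : 2 ≤ q) : c.natAbs ≤ (q + 1) * (q + 1) := by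
  rcases h with ⟨s, hs, -, h1⟩ | ⟨-, -, h1⟩
  · have h2 := Int.natAbs_dvd_natAbs.2 h1
    rw [pow_two, Int.natAbs_mul] at h2
    have h3 : ((q : ℤ) + s).natAbs ≤ q + 1 := by rcases hs with rfl | rfl <;> omega
    have h4 : 0 < ((q : ℤ) + s).natAbs := by rcases hs with rfl | rfl <;> omega
    exact (Nat.le_of_dvd (Nat.mul_pos h4 h4) h2).trans (Nat.mul_le_mul h3 h3)
  · have : c.natAbs = 1 := by omega
    rw [this]; nlinarith

theorem Typ.c_ne {q : ℕ} {a b c : ℤ} (h : Typ q a b c) (hq : 2 ≤ q) : c ≠ 0 := by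
  rcases h with ⟨s, hs, -, h1⟩ | ⟨-, -, h1⟩
  · rintro rfl
    have h2 := zero_dvd_iff.1 h1
    have h3 : (q : ℤ) + s = 0 := by
      exact pow_eq_zero_iff (two_ne_zero) |>.1 h2
    rcases hs with rfl | rfl <;> omega
  · omega

theorem rel_core {p q : ℕ} (hp : p.Prime) (hpq : p ∣ q) (hq : 3 ≤ q) {a b c : ℤ} {M N H d T : ℕ} {E μ K ρ : ℤ}
    (hrel : a * M = b * N + c) (htyp : Typ q a b c) (hM : d * M = H * E.natAbs) (hE : μ * E = K + ρ)
    (hTK : (T : ℤ) ∣ K) (hTN : T ∣ d * N) (hpH : ¬ p ∣ H) (hpd : ¬ p ∣ d) (hpμ : ¬ (p : ℤ) ∣ μ) (hpK : ¬ (p : ℤ) ∣ K) :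
    T ≤ (q + 1) * (H * ρ.natAbs + μ.natAbs * d * (q + 1)) ∨
      (T2 a b c ∧ H * ρ.natAbs = μ.natAbs * d ∧ μ.natAbs * d * N = H * K.natAbs) := by
  have hpZ : Prime (p : ℤ) := Nat.prime_iff_prime_int.1 hp
  -- the sign
  obtain ⟨σ, hσ, hσE⟩ : ∃ σ : ℤ, (σ = 1 ∨ σ = -1) ∧ ((E.natAbs : ℕ) : ℤ) = σ * E := by
    rcases Int.natAbs_eq E with h | h
    · exact ⟨1, Or.inl rfl, by rw [one_mul]; exact h.symm⟩
    · exact ⟨-1, Or.inr rfl, by linarith⟩
  have hMz : (d : ℤ) * M = H * (σ * E) := by rw [← hσE]; exact_mod_cast hM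
  have e1 : σ * a * H * K + σ * a * H * ρ = μ * d * b * N + μ * d * c := by
    have : μ * (d * (a * M)) = μ * (d * (b * N + c)) := by rw [hrel]
    calc σ * a * H * K + σ * a * H * ρ = σ * a * H * (K + ρ) := by ring
      _ = σ * a * H * (μ * E) := by rw [hE]
      _ = μ * a * (H * (σ * E)) := by ring
      _ = μ * (d * (a * M)) := by rw [← hMz]; ring
      _ = μ * (d * (b * N + c)) := this
      _ = _ := by ring
  have hTNz : (T : ℤ) ∣ (d : ℤ) * N := by exact_mod_cast Int.natCast_dvd_natCast.2 hTN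
  have hF : (T : ℤ) ∣ σ * a * H * ρ - μ * d * c := by
    have h1 : σ * a * H * ρ - μ * d * c = (μ * b) * (d * N) - (σ * a * H) * K := by linear_combination e1
    rw [h1]
    exact dvd_sub (hTNz.mul_left _) (hTK.mul_left _)
  by_cases h0 : σ * a * H * ρ - μ * d * c = 0
  · right
    have h1 : σ * a * H * ρ = μ * d * c := sub_eq_zero.1 h0
    have h2 : σ * a * H * K = μ * d * b * N := by linear_combination e1 - h1
    have hσp : ¬ (p : ℤ) ∣ σ := by
      intro h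
      have h3 : (p : ℤ) ∣ 1 := by
        rcases hσ with rfl | rfl
        · exact h
        · exact (Int.dvd_neg).1 h
      exact hpZ.not_unit (isUnit_of_dvd_one h3)
    have hHp : ¬ (p : ℤ) ∣ (H : ℤ) := fun h => hpH (Int.natCast_dvd_natCast.1 h)
    have hdp : ¬ (p : ℤ) ∣ (d : ℤ) := fun h => hpd (Int.natCast_dvd_natCast.1 h)
    have hqp : (p : ℤ) ∣ (q : ℤ) := Int.natCast_dvd_natCast.2 hpq
    rcases htyp with ⟨s, hs, hab, hc⟩ | h3
    · exfalso
      have hsp : ¬ (p : ℤ) ∣ (q : ℤ) + s := by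
        intro h
        have h4 := (dvd_add_right hqp).1 h
        have h5 : (p : ℤ) ∣ 1 := by
          rcases hs with rfl | rfl
          · exact h4
          · exact (Int.dvd_neg).1 h4
        exact hpZ.not_unit (isUnit_of_dvd_one h5)
      have hcp : ¬ (p : ℤ) ∣ c := fun h => hsp (hpZ.dvd_of_dvd_pow (h.trans hc))
      rcases hab with ⟨ha, hb⟩ | ⟨ha, hb⟩
      · -- `b = q`
        have h4 : (p : ℤ) ∣ σ * a * H * K := by
          rw [h2, hb]
          exact ((hqp.mul_left _).mul_right _)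
        rcases hpZ.dvd_or_dvd h4 with h5 | h5
        · rcases hpZ.dvd_or_dvd h5 with h6 | h6
          · rcases hpZ.dvd_or_dvd h6 with h7 | h7
            · exact hσp h7
            · rw [ha] at h7; exact hsp h7
          · exact hHp h6
        · exact hpK h5
      · have h4 : (p : ℤ) ∣ μ * d * c := by
          rw [← h1, ha]
          exact (((hqp.mul_left _).mul_right _).mul_right _)
        rcases hpZ.dvd_or_dvd h4 with h5 | h5
        · rcases hpZ.dvd_or_dvd h5 with h6 | h6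
          · exact hpμ h6
          · exact hdp h6
        · exact hcp h5
    · refine ⟨h3, ?_, ?_⟩
      · obtain ⟨rfl, rfl, hc⟩ := h3
        have h4 := congrArg Int.natAbs h1
        have h5 : σ.natAbs = 1 := by rcases hσ with rfl | rfl <;> rfl
        have h6 : c.natAbs = 1 := by rcases hc with rfl | rfl <;> rfl
        simpa [Int.natAbs_mul, h5, h6] using h4
      · obtain ⟨rfl, rfl, hc⟩ := h3
        have h4 := congrArg Int.natAbs h2
        have h5 : σ.natAbs = 1 := by rcases hσ with rfl | rfl <;> rfl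
        simpa [Int.natAbs_mul, h5] using h4.symm
  · left
    have h1 := Nat.le_of_dvd (Int.natAbs_pos.2 h0) (Int.natCast_dvd.1 hF)
    have h5 : σ.natAbs = 1 := by rcases hσ with rfl | rfl <;> rfl
    have h6 := htyp.a_le (show 1 ≤ q by omega)
    have h7 := htyp.c_le (show 2 ≤ q by omega)
    calc T ≤ _ := h1
      _ ≤ (σ * a * H * ρ).natAbs + (μ * d * c).natAbs := Int.natAbs_sub_le _ _
      _ = a.natAbs * (H * ρ.natAbs) + μ.natAbs * d * c.natAbs := by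
        simp only [Int.natAbs_mul, h5, Int.natAbs_natCast, one_mul, mul_assoc]
      _ ≤ (q + 1) * (H * ρ.natAbs) + μ.natAbs * d * ((q + 1) * (q + 1)) :=
        Nat.add_le_add (Nat.mul_le_mul_right _ h6) (Nat.mul_le_mul_left _ h7)
      _ = _ := by ring

/-- the sufficient condition -/
def chk (θ T ρ μ d H Z : ℕ) : Bool :=
  decide ((θ * (H * ρ)) ^ 7 * (480 * (H * Z)) < ((θ - 1) * T) ^ 7 * d) &&
    decide ((θ * (μ * d)) ^ 7 * (480 ^ 2 * (H * Z) ^ 2) < T ^ 7 * d ^ 2)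

theorem semi_false {θ T ρ μ d H Z M q : ℕ} (hθ : 1 ≤ θ) (hq : 3 ≤ q) (hM : d * M = H * Z) (hs : q ^ 7 ≤ 64 * M)
    (hT : T ≤ (q + 1) * (H * ρ + μ * d * (q + 1))) (h : chk θ T ρ μ d H Z = true) : False := by
  have h1 : (q + 1) ^ 7 ≤ 480 * M := by
    have h2 : 3 * (q + 1) ≤ 4 * q := by omega
    have h3 := Nat.pow_le_pow_left h2 7
    rw [mul_pow, mul_pow] at h3
    have h4 : 3 ^ 7 * (q + 1) ^ 7 ≤ 4 ^ 7 * (64 * M) := h3.trans (Nat.mul_le_mul_left _ hs)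
    omega
  rw [chk, Bool.and_eq_true, decide_eq_true_eq, decide_eq_true_eq] at h
  obtain ⟨c1, c2⟩ := h
  rw [← hM] at c1 c2
  have k1 : θ * (H * ρ) * (q + 1) < (θ - 1) * T := by
    by_contra hcon
    have h5 := Nat.pow_le_pow_left (not_lt.1 hcon) 7
    have h6 : ((θ - 1) * T) ^ 7 * d ≤ (θ * (H * ρ)) ^ 7 * (480 * (d * M)) := by
      calc ((θ - 1) * T) ^ 7 * d ≤ (θ * (H * ρ) * (q + 1)) ^ 7 * d := Nat.mul_le_mul_right _ h5
        _ = (θ * (H * ρ)) ^ 7 * ((q + 1) ^ 7 * d) := by rw [mul_pow]; ring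
        _ ≤ (θ * (H * ρ)) ^ 7 * (480 * M * d) := Nat.mul_le_mul_left _ (Nat.mul_le_mul_right _ h1)
        _ = _ := by ring
    omega
  have k2 : θ * (μ * d) * (q + 1) ^ 2 < T := by
    by_contra hcon
    have h5 := Nat.pow_le_pow_left (not_lt.1 hcon) 7
    have h6 : T ^ 7 * d ^ 2 ≤ (θ * (μ * d)) ^ 7 * (480 ^ 2 * (d * M) ^ 2) := by
      calc T ^ 7 * d ^ 2 ≤ (θ * (μ * d) * (q + 1) ^ 2) ^ 7 * d ^ 2 := Nat.mul_le_mul_right _ h5
        _ = (θ * (μ * d)) ^ 7 * (((q + 1) ^ 7) ^ 2 * d ^ 2) := by rw [mul_pow]; ring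
        _ ≤ (θ * (μ * d)) ^ 7 * ((480 * M) ^ 2 * d ^ 2) :=
          Nat.mul_le_mul_left _ (Nat.mul_le_mul_right _ (Nat.pow_le_pow_left h1 2))
        _ = _ := by ring
    omega
  have k3 : θ * T < θ * T := by
    calc θ * T ≤ θ * ((q + 1) * (H * ρ + μ * d * (q + 1))) := Nat.mul_le_mul_left _ hT
      _ = θ * (H * ρ) * (q + 1) + θ * (μ * d) * (q + 1) ^ 2 := by ring
      _ < (θ - 1) * T + T := Nat.add_lt_add k1 k2
      _ = (θ - 1 + 1) * T := by ring
      _ = θ * T := by rw [Nat.sub_add_cancel hθ]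
  exact lt_irrefl _ k3

end Cfsg.Agent.R2.Spec.NA
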